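import Mathlib

/-!
# Transitive groups of prime degree (helper100)
-/

set_option autoImplicit false

namespace Cfsg.Agent.H100.AltSyl

open MulAction Subgroup
open scoped commutatorElement

section

variable {α : Type*} [Fintype α] {p : ℕ} [hp : Fact p.Prime] {M : Type*} [Group M] [MulAction M α]
  [FaithfulSMul M α]

theorem finite_of_faithful (α : Type*) [Fintype α] (M : Type*) [Group M] [MulAction M α]
    [FaithfulSMul M α] : Finite M := by
  classical
  exact Finite.of_injective (MulAction.toPermHom M α) MulAction.toPerm_injective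

theorem pd_card_dvd (hα : Fintype.card α = p) : Nat.card M ∣ p.factorial := by
  classical
  have h := Subgroup.card_dvd_of_injective (MulAction.toPermHom M α) MulAction.toPerm_injective
  rw [Nat.card_eq_fintype_card (α := Equiv.Perm α), Fintype.card_perm, hα] at h
  exact h

theorem not_sq_dvd_factorial : ¬ p ^ 2 ∣ p.factorial := by
  intro h
  obtain ⟨k, hk⟩ : ∃ k, p = k + 1 := ⟨p - 1, by have := hp.out.pos; omega⟩
  have h1 : p.factorial = p * (p - 1).factorial := (Nat.mul_factorial_pred hp.out.ne_zero).symm
  rw [h1, sq] at h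
  have h2 := Nat.dvd_of_mul_dvd_mul_left hp.out.pos h
  rw [hp.out.dvd_factorial] at h2
  have := hp.out.pos
  omega

theorem pd_dvd (hα : Fintype.card α = p) [IsPretransitive M α] : p ∣ Nat.card M := by
  have := finite_of_faithful α M
  have h1 : Nonempty α := Fintype.card_pos_iff.mp (by rw [hα]; exact hp.out.pos)
  obtain ⟨a⟩ := h1
  have h := MulAction.index_stabilizer_of_transitive M a
  rw [Nat.card_eq_fintype_card, hα] at h
  rw [← h]
  exact Subgroup.index_dvd_card _

theorem pd_factorization (hα : Fintype.card α = p) [IsPretransitive M α] : (Nat.card M).factorization p = 1 := by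
  have := finite_of_faithful α M
  have h0 : Nat.card M ≠ 0 := Nat.card_pos.ne'
  have h1 : 1 ≤ (Nat.card M).factorization p :=
    (hp.out.pow_dvd_iff_le_factorization h0).1 (by rw [pow_one]; exact pd_dvd hα)
  have h2 : ¬ 2 ≤ (Nat.card M).factorization p := by
    intro h
    exact not_sq_dvd_factorial (((hp.out.pow_dvd_iff_le_factorization h0).2 h).trans (pd_card_dvd hα))
  omega

theorem pd_sylow_card (hα : Fintype.card α = p) [IsPretransitive M α] (P : Sylow p M) : Nat.card P = p := by
  have := finite_of_faithful α M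
  have h := P.card_eq_multiplicity
  rw [pd_factorization (M := M) hα, pow_one] at h
  exact h

theorem pd_normal_transitive (hα : Fintype.card α = p) [IsPretransitive M α]
    (N : Subgroup M) [N.Normal] (hN : N ≠ ⊥) : IsPretransitive N α := by
  have : IsPreprimitive M α := IsPreprimitive.of_prime_card
    (by rw [Nat.card_eq_fintype_card, hα]; exact hp.out)
  apply IsQuasiPreprimitive.isPretransitive_of_normal (G := M)
  intro h
  apply hN
  rw [eq_bot_iff]
  intro x hx
  rw [Subgroup.mem_bot]
  apply FaithfulSMul.eq_of_smul_eq_smul (α := α)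
  intro a
  have : a ∈ fixedPoints N α := by rw [h]; trivial
  rw [one_smul]
  exact this ⟨x, hx⟩

/-- a nontrivial normal subgroup contains the Sylow `p`-subgroups -/
theorem pd_sylow_le (hα : Fintype.card α = p) [IsPretransitive M α] (P : Sylow p M) (N : Subgroup M) [N.Normal]
    (hN : N ≠ ⊥) : (P : Subgroup M) ≤ N := by
  have := finite_of_faithful α M
  have := pd_normal_transitive (M := M) hα N hN
  have h1 : p ∣ Nat.card N := pd_dvd hα
  have h2 : ¬ p ∣ N.index := by
    intro h
    apply not_sq_dvd_factorial (p := p)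
    refine dvd_trans ?_ (pd_card_dvd (M := M) hα)
    rw [← Subgroup.card_mul_index N, sq]
    exact mul_dvd_mul h1 h
  intro x hx
  have h3 : orderOf (QuotientGroup.mk' N x) ∣ p := by
    refine (orderOf_map_dvd (QuotientGroup.mk' N) x).trans ?_
    have h4 : orderOf (⟨x, hx⟩ : P) ∣ Nat.card P := orderOf_dvd_natCard _
    rw [pd_sylow_card hα P] at h4
    have h5 : orderOf (⟨x, hx⟩ : P) = orderOf x := Subgroup.orderOf_mk _ _
    rwa [h5] at h4
  have h4 : orderOf (QuotientGroup.mk' N x) ∣ N.index := by
    rw [Subgroup.index_eq_card]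
    exact orderOf_dvd_natCard _
  rcases (Nat.dvd_prime hp.out).1 h3 with h5 | h5
  · rw [orderOf_eq_one_iff] at h5
    exact (QuotientGroup.eq_one_iff x).1 h5
  · exact absurd (h5 ▸ h4) h2

theorem pd_sylow_ne_bot (hα : Fintype.card α = p) [IsPretransitive M α] (P : Sylow p M) : (P : Subgroup M) ≠ ⊥ := by
  intro h
  have h1 := pd_sylow_card hα P
  have h2 : Nat.card (P : Subgroup M) = 1 := by rw [h]; exact Subgroup.card_bot
  have h3 : Nat.card (P : Subgroup M) = p := h1
  rw [h2] at h3
  exact hp.out.one_lt.ne h3

/-- An abelian transitive group has order `p`. -/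
theorem pd_card_comm (hα : Fintype.card α = p) [IsPretransitive M α] (hc : ∀ x y : M, x * y = y * x) :
    Nat.card M = p := by
  have := finite_of_faithful α M
  obtain ⟨a⟩ : Nonempty α := Fintype.card_pos_iff.mp (by rw [hα]; exact hp.out.pos)
  have h1 : stabilizer M a = ⊥ := by
    rw [eq_bot_iff]
    intro x hx
    rw [Subgroup.mem_bot]
    apply FaithfulSMul.eq_of_smul_eq_smul (α := α)
    intro b
    obtain ⟨g, rfl⟩ := exists_smul_eq M a b
    rw [one_smul, ← mul_smul, hc, mul_smul, mem_stabilizer_iff.1 hx]
  have h := MulAction.index_stabilizer_of_transitive M a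
  rw [h1, Subgroup.index_bot, Nat.card_eq_fintype_card (α := α), hα] at h
  exact h

/-- the centralizer of a Sylow `p`-subgroup -/
theorem pd_centralizer_le (hα : Fintype.card α = p) [IsPretransitive M α] (P : Sylow p M) :
    Subgroup.centralizer (P : Set M) ≤ P := by
  classical
  have := finite_of_faithful α M
  have hP := pd_sylow_card (M := M) hα P
  obtain ⟨⟨g, hgP⟩, hg⟩ := exists_prime_orderOf_dvd_card' (G := P) p (by rw [hP])
  have hg' : orderOf g = p := by rw [← hg]; exact (Subgroup.orderOf_mk _ _).symm
  set σ : Equiv.Perm α := MulAction.toPermHom M α g with hσ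
  have hσ7 : orderOf σ = p := by
    rw [hσ, orderOf_injective _ MulAction.toPerm_injective, hg']
  have hcyc : σ.IsCycle := Equiv.Perm.isCycle_of_prime_order'' (by rw [hα]; exact hp.out)
    (by rw [hσ7, hα])
  have hsupp : ∀ x, σ x ≠ x := by
    have h1 : σ.support.card = p := by rw [← hcyc.orderOf, hσ7]
    have h2 : σ.support = Finset.univ := by
      rw [← Finset.card_eq_iff_eq_univ, h1, hα]
    intro x
    rw [← Equiv.Perm.mem_support, h2]
    exact Finset.mem_univ _
  obtain ⟨a⟩ : Nonempty α := Fintype.card_pos_iff.mp (by rw [hα]; exact hp.out.pos)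
  intro τ hτ
  have hcomm : Commute g τ := hτ g hgP
  obtain ⟨i, hi⟩ := hcyc.exists_zpow_eq (hsupp a) (hsupp (τ • a))
  have hi' : g ^ i • a = τ • a := by
    rw [hσ, ← map_zpow] at hi
    exact hi
  have : τ = g ^ i := by
    apply (MulAction.toPerm_injective (α := M) (β := α))
    ext x
    obtain ⟨j, hj⟩ := hcyc.exists_zpow_eq (hsupp a) (hsupp x)
    have hj' : g ^ j • a = x := by
      rw [hσ, ← map_zpow] at hj
      exact hj
    simp only [MulAction.toPerm_apply]
    rw [← hj', smul_smul, smul_smul, ← (hcomm.zpow_left j).eq, ← zpow_add, add_comm, zpow_add,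
      mul_smul, mul_smul, hi']
  rw [this]
  exact Subgroup.zpow_mem _ hgP _

/-- A transitive group of prime degree with a normal Sylow `p`-subgroup is solvable. -/
theorem pd_solvable_of_normal (hα : Fintype.card α = p) [IsPretransitive M α] (P : Sylow p M)
    (hP : (P : Subgroup M).Normal) : Group.IsSolvable M := by
  have := finite_of_faithful α M
  have hcyc : IsCyclic P := isCyclic_of_prime_card (p := p) (pd_sylow_card (M := M) hα P)
  let _ : CommGroup P := IsCyclic.commGroup (α := P)
  have : Group.IsSolvable (MulAut P) := by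
    refine Group.isSolvable_of_isSolvable_injective (G' := (ZMod (Nat.card P))ˣ)
      (f := ((IsCyclic.mulAutMulEquiv P).toMonoidHom)) (IsCyclic.mulAutMulEquiv P).injective
  refine Group.isSolvable_of_ker_le_range (P : Subgroup M).subtype (MulAut.conjNormal (H := (P : Subgroup M))) ?_
  intro x hx
  rw [Subgroup.range_subtype]
  apply pd_centralizer_le hα P
  intro y hy
  have h1 : x * y * x⁻¹ = y := by
    have := congrArg (fun f : MulAut P => ((f ⟨y, hy⟩ : P) : M)) (MonoidHom.mem_ker.1 hx)
    simp only [MulAut.conjNormal_apply, MulAut.one_apply] at this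
    exact this
  have h2 : x * y = y * x := mul_inv_eq_iff_eq_mul.1 h1
  exact h2.symm

/-- A solvable transitive group of prime degree has a normal Sylow `p`-subgroup. -/
theorem pd_normal_of_solvable (hα : Fintype.card α = p) [IsPretransitive M α] (hs : Group.IsSolvable M)
    (P : Sylow p M) : (P : Subgroup M).Normal := by
  have := finite_of_faithful α M
  -- a nontrivial abelian normal subgroup
  obtain ⟨N, hN, hNb, hNc⟩ : ∃ N : Subgroup M, N.Normal ∧ N ≠ ⊥ ∧ ∀ x ∈ N, ∀ y ∈ N, x * y = y * x := by
    classical
    have hex := hs.solvable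
    set n := Nat.find hex with hn
    have h1 : derivedSeries M n = ⊥ := Nat.find_spec hex
    have h0 : n ≠ 0 := by
      intro h
      rw [h, derivedSeries_zero] at h1
      apply pd_sylow_ne_bot hα P
      rw [eq_bot_iff, ← h1]
      exact le_top
    obtain ⟨k, hk⟩ := Nat.exists_eq_succ_of_ne_zero h0
    refine ⟨derivedSeries M k, inferInstance, Nat.find_min hex (by omega), ?_⟩
    intro x hx y hy
    rw [hk, Nat.succ_eq_add_one, derivedSeries_succ] at h1
    have h2 : ⁅x, y⁆ ∈ (⊥ : Subgroup M) := by
      rw [← h1]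
      exact Subgroup.commutator_mem_commutator hx hy
    rw [Subgroup.mem_bot, commutatorElement_eq_one_iff_mul_comm] at h2
    exact h2
  have := pd_normal_transitive (M := M) hα N hNb
  have h1 : Nat.card N = p := pd_card_comm hα (fun x y => Subtype.ext (hNc x x.2 y y.2))
  have h2 : (P : Subgroup M) = N := by
    apply Subgroup.eq_of_le_of_card_ge (pd_sylow_le hα P N hNb)
    rw [h1]
    exact (pd_sylow_card hα P).ge
  rw [h2]
  exact hN

/-- The unique minimal normal subgroup of a nonsolvable transitive group of prime degree. -/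
theorem pd_exists_simple (hα : Fintype.card α = p) [IsPretransitive M α] (hs : ¬ Group.IsSolvable M) :
    ∃ T : Subgroup M, T.Normal ∧ IsSimpleGroup T ∧ (∀ N : Subgroup M, N.Normal → N ≠ ⊥ → T ≤ N) ∧
      ¬ (∀ x y : T, x * y = y * x) ∧ T ≠ ⊥ := by
  have := finite_of_faithful α M
  obtain ⟨P⟩ : Nonempty (Sylow p M) := inferInstance
  -- the normal closure of the Sylow subgroup
  set T : Subgroup M := Subgroup.normalClosure ((P : Subgroup M) : Set M) with hT
  have hPT : (P : Subgroup M) ≤ T := Subgroup.subset_normalClosure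
  have hTn : T.Normal := Subgroup.normalClosure_normal
  have hTb : T ≠ ⊥ := by
    intro h
    apply pd_sylow_ne_bot hα P
    rw [eq_bot_iff, ← h]
    exact hPT
  have hmin : ∀ N : Subgroup M, N.Normal → N ≠ ⊥ → T ≤ N := by
    intro N hN hNb
    exact Subgroup.normalClosure_le_normal (pd_sylow_le hα P N hNb)
  have htr := pd_normal_transitive (M := M) hα T hTb
  refine ⟨T, hTn, ?_, hmin, ?_, hTb⟩
  · have hnt : Nontrivial T := (Subgroup.nontrivial_iff_ne_bot T).2 hTb
    refine ⟨fun K hK => ?_⟩
    by_cases hKb : K = ⊥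
    · exact Or.inl hKb
    right
    rw [eq_top_iff]
    have key : T ≤ K.map T.subtype := by
      refine le_trans (le_of_eq hT) ?_
      rw [Subgroup.normalClosure, Subgroup.closure_le]
      intro x hx
      obtain ⟨y, hy, hxy⟩ := Group.mem_conjugatesOfSet_iff.1 hx
      obtain ⟨g, rfl⟩ := isConj_iff.1 hxy
      have h1 : ((g • P : Sylow p M) : Subgroup M) ≤ T := by
        intro z hz
        rw [Sylow.coe_subgroup_smul] at hz
        obtain ⟨w, hw, rfl⟩ := hz
        exact hTn.conj_mem w (hPT hw) g
      have h2 := pd_sylow_le (M := T) hα ((g • P : Sylow p M).subtype h1) K hKb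
      have h3 : g * y * g⁻¹ ∈ ((g • P : Sylow p M) : Subgroup M) := by
        rw [Sylow.coe_subgroup_smul]
        exact ⟨y, hy, rfl⟩
      refine ⟨⟨g * y * g⁻¹, h1 h3⟩, h2 ?_, rfl⟩
      exact h3
    intro t _
    obtain ⟨k, hk, hkt⟩ := key t.2
    have : k = t := Subtype.ext hkt
    rw [← this]
    exact hk
  · intro hc
    apply hs
    apply pd_solvable_of_normal hα P
    have h1 : Nat.card T = p := pd_card_comm hα hc
    have h2 : (P : Subgroup M) = T := by
      apply Subgroup.eq_of_le_of_card_ge hPT
      rw [h1]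
      exact (pd_sylow_card hα P).ge
    rw [h2]
    exact hTn

end

end Cfsg.Agent.H100.AltSyl
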