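import Mathlib
import Cfsg.Agent.H100.AltSyl.PslPts

/-!
# `PSL_d`, `d ≥ 3`, is not triply transitive on the points (helper100)
-/

set_option autoImplicit false

namespace Cfsg.Agent.H100.AltSyl

open MulAction Equiv Equiv.Perm
open scoped LinearAlgebra.Projectivization Pointwise

/-- triple transitivity on elements -/
theorem three_of_multiply {H X : Type*} [Group H] [MulAction H X] (h : IsMultiplyPretransitive H X 3)
    {a b c a' b' c' : X} (hab : a ≠ b) (hac : a ≠ c) (hbc : b ≠ c) (hab' : a' ≠ b') (hac' : a' ≠ c') (hbc' : b' ≠ c') :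
    ∃ g : H, g • a = a' ∧ g • b = b' ∧ g • c = c' := by
  have h3 : IsPretransitive H (Fin 3 ↪ X) := h
  have hemb : ∀ {a b c : X}, a ≠ b → a ≠ c → b ≠ c → Function.Injective ![a, b, c] := by
    intro a b c h1 h2 h3 i j hij
    fin_cases i <;> fin_cases j <;> simp_all
  obtain ⟨g, hg⟩ := exists_smul_eq H (⟨![a, b, c], hemb hab hac hbc⟩ : Fin 3 ↪ X) ⟨![a', b', c'], hemb hab' hac' hbc'⟩
  refine ⟨g, ?_, ?_, ?_⟩
  · exact DFunLike.congr_fun hg 0
  · exact DFunLike.congr_fun hg 1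
  · exact DFunLike.congr_fun hg 2

section

variable {ι F : Type*} [Fintype ι] [DecidableEq ι] [Field F]

theorem psl_not_three (h : 3 ≤ Fintype.card ι)
    (h3 : ∀ a b c a' b' c' : ℙ F (ι → F), a ≠ b → a ≠ c → b ≠ c → a' ≠ b' → a' ≠ c' → b' ≠ c' →
      ∃ g : Matrix.ProjectiveSpecialLinearGroup ι F, g • a = a' ∧ g • b = b' ∧ g • c = c') : False := by
  obtain ⟨i, j, k, hij, hik, hjk⟩ := Fintype.two_lt_card_iff.1 (show 2 < Fintype.card ι by omega)
  have h1 : ∀ i : ι, (Pi.single i (1 : F) : ι → F) ≠ 0 := fun i => Pi.single_ne_zero_iff.2 one_ne_zero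
  have h2 : (Pi.single i (1 : F) + Pi.single j (1 : F) : ι → F) ≠ 0 := by
    intro h
    have := congrFun h i
    simp [hij] at this
  have hne : ∀ i j : ι, i ≠ j → Projectivization.mk F _ (h1 i) ≠ Projectivization.mk F _ (h1 j) := by
    intro i j hij
    rw [Ne, Projectivization.mk_eq_mk_iff']
    rintro ⟨a, ha⟩
    have := congrFun ha i
    simp [hij] at this
  have hne1 : Projectivization.mk F _ (h1 i) ≠ Projectivization.mk F _ h2 := by
    rw [Ne, Projectivization.mk_eq_mk_iff']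
    rintro ⟨a, ha⟩
    have h4 := congrFun ha i
    have h5 := congrFun ha j
    simp [hij, hij.symm] at h4 h5
    rw [h5] at h4
    exact zero_ne_one h4
  have hne2 : Projectivization.mk F _ (h1 j) ≠ Projectivization.mk F _ h2 := by
    rw [Ne, Projectivization.mk_eq_mk_iff']
    rintro ⟨a, ha⟩
    have h4 := congrFun ha i
    have h5 := congrFun ha j
    simp [hij, hij.symm] at h4 h5
    rw [h4] at h5
    exact zero_ne_one h5
  obtain ⟨g, hg1, hg2, hg3⟩ := h3 _ _ _ _ _ _ (hne i j hij) hne1 hne2 (hne i j hij) (hne i k hik) (hne j k hjk)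
  obtain ⟨g, rfl⟩ := QuotientGroup.mk_surjective g
  rw [Matrix.ProjectiveSpecialLinearGroup.smul_proj_mk, Projectivization.smul_mk, Projectivization.mk_eq_mk_iff'] at hg1 hg2 hg3
  obtain ⟨x, hx⟩ := hg1
  obtain ⟨y, hy⟩ := hg2
  obtain ⟨z, hz⟩ := hg3
  rw [smul_add, ← hx, ← hy] at hz
  have h4 := congrFun hz i
  simp [hij, hik] at h4
  rw [← h4, zero_smul] at hx
  have h5 : g • (Pi.single i (1 : F) : ι → F) ≠ 0 := (smul_ne_zero_iff_ne g).2 (h1 i)
  exact h5 hx.symm

end

end Cfsg.Agent.H100.AltSyl
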