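import Mathlib
import Cfsg.Agent.H100.AltSyl.PslThree
import Cfsg.Agent.H100.AltSyl.PrimeDeg
import Cfsg.Agent.S0366
import Cfsg.Agent.S0376
import Cfsg.Agent.S0377
import Cfsg.Agent.S2542
import Cfsg.Agent.ClassicalGeometry.PSL2Basic

/-!
# Nonsolvable proper subgroups of the alternating groups of prime degree (helper100)
-/

set_option autoImplicit false

namespace Cfsg.Agent.H100.AltSyl

open MulAction Equiv Equiv.Perm
open scoped Pointwise LinearAlgebra.Projectivization

section

variable {α : Type*} [Fintype α] [DecidableEq α] {p : ℕ} [hp : Fact p.Prime]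

theorem not_solvable_range {H G : Type*} [Group H] [Group G] [IsSimpleGroup H] (hna : ¬ ∀ a b : H, a * b = b * a)
    (ψ : H →* G) (hψ : Function.Injective ψ) : ¬ Group.IsSolvable ψ.range := by
  intro h
  apply hna
  rw [IsSimpleGroup.comm_iff_isSolvable]
  exact Group.isSolvable_of_isSolvable_injective (f := (MonoidHom.ofInjective hψ).toMonoidHom)
    (MonoidHom.ofInjective hψ).injective

theorem card_range {H G : Type*} [Group H] [Group G] (ψ : H →* G) (hψ : Function.Injective ψ) :
    Nat.card ψ.range = Nat.card H := (Nat.card_congr (MonoidHom.ofInjective hψ).toEquiv).symm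

/-- from a subgroup of index `p` -/
theorem exists_over_of_index (hα : Fintype.card α = p) (h3 : 3 ≤ p) (R : Sylow p (alternatingGroup α))
    {H : Type*} [Group H] [Finite H] [IsSimpleGroup H] (hna : ¬ ∀ a b : H, a * b = b * a) (K : Subgroup H)
    (hK : K.index = p) (hcard : Nat.card H < p.factorial / 2) :
    ∃ X : Subgroup (alternatingGroup α), (R : Subgroup (alternatingGroup α)) ≤ X ∧ X ≠ ⊤ ∧ ¬ Group.IsSolvable X := by
  have hfaith : FaithfulSMul H (H ⧸ K) := by
    have h1 : K.normalCore = ⊥ := by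
      rcases (inferInstance : K.normalCore.Normal).eq_bot_or_eq_top with h | h
      · exact h
      · exfalso
        have h2 : K = ⊤ := by
          rw [eq_top_iff, ← h]
          exact K.normalCore_le
        rw [h2, Subgroup.index_top] at hK
        exact hp.out.one_lt.ne hK
    rw [K.normalCore_eq_ker] at h1
    exact ⟨fun {a b} h => (MonoidHom.ker_eq_bot_iff _).1 h1 (Equiv.ext h)⟩
  obtain ⟨ψ, e, hinj, hequiv, hR⟩ := exists_embed (α := α) (R : Subgroup (alternatingGroup α)) R.isPGroup'
    (not_sq_dvd_card_alt (by have := hp.out.pos; omega) (by omega)) (H := H) (X := H ⧸ K) hna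
    (hK ▸ K.index_dvd_card) (by rw [← Subgroup.index_eq_card, hK, hα]) (by omega)
  refine ⟨ψ.range, hR, ?_, not_solvable_range hna ψ hinj⟩
  intro h
  have h1 := card_range ψ hinj
  have h3 : Nontrivial α := Fintype.one_lt_card_iff_nontrivial.1 (by omega)
  rw [h, Subgroup.card_top, nat_card_alternatingGroup, Nat.card_eq_fintype_card, hα] at h1
  omega

/-- the triple transitivity of the alternating group in terms of points -/
theorem alt_three (hα : 5 ≤ Fintype.card α) : IsMultiplyPretransitive (alternatingGroup α) α 3 := by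
  have := alternatingGroup.isMultiplyPretransitive α
  exact isMultiplyPretransitive_of_le (n := Nat.card α - 2) (by rw [Nat.card_eq_fintype_card]; omega)
    (Nat.sub_le _ _)

/-- `PSL_d(q)` in degree `(q ^ d - 1) / (q - 1)` -/
theorem exists_over_psl (hα : Fintype.card α = p) (h7 : 7 ≤ p) (R : Sylow p (alternatingGroup α))
    {q d : ℕ} (hq : IsPrimePow q) (hd : 2 ≤ d) (hqd : p * (q - 1) = q ^ d - 1) :
    ∃ X : Subgroup (alternatingGroup α), (R : Subgroup (alternatingGroup α)) ≤ X ∧ X ≠ ⊤ ∧ ¬ Group.IsSolvable X := by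
  obtain ⟨l, e, hl, he, hle⟩ := hq
  have hl' : Fact l.Prime := ⟨hl.nat_prime⟩
  let F := GaloisField l e
  have hfinF : Finite F := inferInstance
  have hFt : Fintype F := Fintype.ofFinite F
  have hFc : Nat.card F = q := by rw [← hle]; exact GaloisField.card l e he.ne'
  have hFc' : Fintype.card F = q := by rw [← Nat.card_eq_fintype_card]; exact hFc
  have hq2 : 2 ≤ q := by rw [← hFc']; exact Fintype.one_lt_card
  have hX : Nat.card (ℙ F (Fin d → F)) = p := by
    have h1 := Projectivization.card F (Fin d → F)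
    rw [Nat.card_fun, Nat.card_fin, hFc, ← hqd] at h1
    exact (Nat.eq_of_mul_eq_mul_right (by omega) h1).symm
  have hfinX : Finite (ℙ F (Fin d → F)) := (Nat.card_ne_zero.1 (by rw [hX]; omega)).2
  have hnt : Nontrivial (Fin d) := Fin.nontrivial_iff_two_le.2 hd
  -- for `d = 2` we have `p = q + 1`
  have hd2 : d = 2 → p = q + 1 := by
    rintro rfl
    have h1 : q ^ 2 - 1 = (q + 1) * (q - 1) := by
      obtain ⟨k, rfl⟩ : ∃ k, q = k + 1 := ⟨q - 1, by omega⟩
      rw [Nat.add_sub_cancel, Nat.sub_eq_iff_eq_add (Nat.one_le_pow _ _ (by omega))]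
      ring
    rw [h1] at hqd
    exact Nat.eq_of_mul_eq_mul_right (by omega) hqd
  have hs : IsSimpleGroup (Matrix.ProjectiveSpecialLinearGroup (Fin d) F) := by
    rcases Nat.lt_or_ge d 3 with h | h
    · obtain rfl : d = 2 := by omega
      have := hd2 rfl
      exact Cfsg.Agent.TwoFusion.SLTwoFacts.isSimpleGroup_psl (by omega)
    · exact Cfsg.Agent.LieClassical.SLGen.psl_isSimpleGroup (by rw [Fintype.card_fin]; exact h)
  have hna := psl_not_comm (ι := Fin d) (F := F)
  have hpre : IsPretransitive (Matrix.ProjectiveSpecialLinearGroup (Fin d) F) (ℙ F (Fin d → F)) := inferInstance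
  obtain ⟨a, b, c, hab, hac, hbc⟩ := three_points (ι := Fin d) (F := F)
  have hdvd : p ∣ Nat.card (Matrix.ProjectiveSpecialLinearGroup (Fin d) F) := by
    have h1 := index_stabilizer_of_transitive (Matrix.ProjectiveSpecialLinearGroup (Fin d) F) a
    rw [← hX, ← h1]
    exact Subgroup.index_dvd_card _
  obtain ⟨ψ, e, hinj, hequiv, hR⟩ := exists_embed (α := α) (R : Subgroup (alternatingGroup α)) R.isPGroup'
    (not_sq_dvd_card_alt (by have := hp.out.pos; omega) (by omega))
    (X := ℙ F (Fin d → F)) hna hdvd (by rw [hX, hα]) (by omega)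
  refine ⟨ψ.range, hR, ?_, not_solvable_range hna ψ hinj⟩
  intro htop
  rcases Nat.lt_or_ge d 3 with h | h
  · obtain rfl : d = 2 := by omega
    have hpq := hd2 rfl
    have h1 := card_range ψ hinj
    have h3 : Nontrivial α := Fintype.one_lt_card_iff_nontrivial.1 (by omega)
    rw [htop, Subgroup.card_top, nat_card_alternatingGroup, Nat.card_eq_fintype_card, hα] at h1
    have h2 : Nat.card (Matrix.ProjectiveSpecialLinearGroup (Fin 2) F) ≤ q ^ 4 := by
      have h1 : Nat.card (Matrix.ProjectiveSpecialLinearGroup (Fin 2) F) ≤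
          Nat.card (Matrix.SpecialLinearGroup (Fin 2) F) := Nat.card_le_card_of_surjective _ (QuotientGroup.mk_surjective)
      have h2 : Nat.card (Matrix.SpecialLinearGroup (Fin 2) F) ≤ Nat.card (Matrix (Fin 2) (Fin 2) F) :=
        Nat.card_le_card_of_injective _ Subtype.val_injective
      have h3 : Nat.card (Matrix (Fin 2) (Fin 2) F) = q ^ 4 := by
        show Nat.card (Fin 2 → Fin 2 → F) = q ^ 4
        rw [Nat.card_fun, Nat.card_fun, hFc, Nat.card_fin, ← pow_mul]
      omega
    obtain ⟨k, rfl⟩ : ∃ k, q = k + 4 := ⟨q - 4, by omega⟩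
    have h5 : (k + 4) ^ 4 < (k + 5).factorial / 2 := by
      rcases Nat.lt_or_ge k 3 with h | h
      · obtain rfl : k = 2 := by omega
        norm_num [Nat.factorial]
      · exact card_bound h
    rw [hpq, show k + 4 + 1 = k + 5 from rfl] at h1
    omega
  · refine psl_not_three (ι := Fin d) (F := F) (by rw [Fintype.card_fin]; exact h) ?_
    intro a b c a' b' c' hab hac hbc hab' hac' hbc'
    obtain ⟨g, h1, h2, h3⟩ := three_of_multiply (alt_three (α := α) (by omega)) (a := e a) (b := e b) (c := e c)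
      (a' := e a') (b' := e b') (c' := e c') (e.injective.ne hab) (e.injective.ne hac) (e.injective.ne hbc)
      (e.injective.ne hab') (e.injective.ne hac') (e.injective.ne hbc')
    obtain ⟨x, rfl⟩ : g ∈ ψ.range := by rw [htop]; trivial
    refine ⟨x, ?_, ?_, ?_⟩
    · apply e.injective; rw [← hequiv]; exact h1
    · apply e.injective; rw [← hequiv]; exact h2
    · apply e.injective; rw [← hequiv]; exact h3

/-- degree 11 -/
theorem exists_over_eleven (hα : Fintype.card α = 11) [Fact (Nat.Prime 11)] (R : Sylow 11 (alternatingGroup α)) :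
    ∃ X : Subgroup (alternatingGroup α), (R : Subgroup (alternatingGroup α)) ≤ X ∧ X ≠ ⊤ ∧ ¬ Group.IsSolvable X := by
  obtain ⟨K, hK, -, -⟩ := Cfsg.Agent.S2542.result (F := ZMod 11) (ZMod.card 11)
  have hs : IsSimpleGroup (Matrix.ProjectiveSpecialLinearGroup (Fin 2) (ZMod 11)) :=
    Cfsg.Agent.TwoFusion.SLTwoFacts.isSimpleGroup_psl (by rw [ZMod.card]; omega)
  have hcard : Nat.card (Matrix.ProjectiveSpecialLinearGroup (Fin 2) (ZMod 11)) = 660 := by
    have h := Cfsg.Agent.ClassicalGeometry.PSL2Basic.card_PSL2_odd (F := ZMod 11) (by rw [ZMod.card]; decide)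
    rw [ZMod.card] at h
    omega
  exact exists_over_of_index hα (by omega) R psl_not_comm K hK (by rw [hcard]; norm_num [Nat.factorial])

/-- degree 23 -/
theorem exists_over_twentythree (hα : Fintype.card α = 23) [Fact (Nat.Prime 23)] (R : Sylow 23 (alternatingGroup α)) :
    ∃ X : Subgroup (alternatingGroup α), (R : Subgroup (alternatingGroup α)) ≤ X ∧ X ≠ ⊤ ∧ ¬ Group.IsSolvable X := by
  have hs : IsSimpleGroup (stabilizer Cfsg.M24 (none : Cfsg.GolayPt)) := Cfsg.Agent.S0377.result none
  have hcard : Nat.card (stabilizer Cfsg.M24 (none : Cfsg.GolayPt)) = 10200960 := Cfsg.Agent.S0376.result none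
  have h5 : IsMultiplyPretransitive Cfsg.M24 Cfsg.GolayPt 5 := Cfsg.Agent.S0366.result
  have hc : Nat.card Cfsg.GolayPt = 24 := by
    rw [Nat.card_eq_fintype_card]; decide
  have h2t : IsMultiplyPretransitive Cfsg.M24 Cfsg.GolayPt 2 :=
    isMultiplyPretransitive_of_le (n := 5) (by norm_num) (by rw [hc]; norm_num)
  have hfin : Finite (stabilizer Cfsg.M24 (none : Cfsg.GolayPt)) := Nat.finite_of_card_ne_zero (by rw [hcard]; norm_num)
  have hna : ¬ ∀ a b : stabilizer Cfsg.M24 (none : Cfsg.GolayPt), a * b = b * a := by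
    intro h
    have h1 := (IsSimpleGroup.comm_iff_isSolvable.1 h)
    let _ : CommGroup (stabilizer Cfsg.M24 (none : Cfsg.GolayPt)) := { mul_comm := h }
    have h2 : (Nat.card (stabilizer Cfsg.M24 (none : Cfsg.GolayPt))).Prime := IsSimpleGroup.prime_card
    rw [hcard] at h2
    exact absurd h2 (by norm_num)
  have hidx : (stabilizer (stabilizer Cfsg.M24 (none : Cfsg.GolayPt)) (some 0 : Cfsg.GolayPt)).index = 23 := by
    rw [index_stabilizer]
    have h1 : orbit (stabilizer Cfsg.M24 (none : Cfsg.GolayPt)) (some 0 : Cfsg.GolayPt) = {(none : Cfsg.GolayPt)}ᶜ := by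
      ext x
      constructor
      · rintro ⟨g, rfl⟩ h
        have h2 : (g : Cfsg.M24) • (some 0 : Cfsg.GolayPt) = none := h
        have h3 : (g : Cfsg.M24) • (none : Cfsg.GolayPt) = none := g.2
        have h4 := MulAction.injective (g : Cfsg.M24) (h2.trans h3.symm)
        exact Option.some_ne_none _ h4
      · intro hx
        obtain ⟨g, h1, h2⟩ := (is_two_pretransitive_iff.1 h2t) (show (none : Cfsg.GolayPt) ≠ some 0 from (Option.some_ne_none _).symm)
          (show (none : Cfsg.GolayPt) ≠ x from fun h => hx h.symm)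
        exact ⟨⟨g, h1⟩, h2⟩
    rw [h1]
    have h2 := Set.ncard_add_ncard_compl ({(none : Cfsg.GolayPt)} : Set Cfsg.GolayPt)
    rw [Set.ncard_singleton, hc] at h2
    omega
  exact exists_over_of_index hα (by omega) R hna _ hidx (by rw [hcard]; norm_num [Nat.factorial])

end

end Cfsg.Agent.H100.AltSyl
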