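import Mathlib
import Cfsg.Agent.H100.AltSyl.PrimeSetup
import Cfsg.Agent.H100.AltSyl.PslThree
import Cfsg.Agent.S0679
import Cfsg.Agent.S0699
import Cfsg.Agent.ClassicalGeometry.PSL2Basic
import Cfsg.Agent.ClassicalGeometry.AutPSL.Main
import Cfsg.Agent.Lib.FieldAutCard
import Cfsg.Agent.SporadicA.MathieuRecog
import Cfsg.Agent.KFacts.M23.OutOne

/-!
# Unique maximal overgroups of Sylow subgroups of the alternating groups: necessity, `n = r` (helper100)
-/

set_option autoImplicit false

namespace Cfsg.Agent.H100.AltSyl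

open MulAction Equiv Equiv.Perm
open scoped Pointwise LinearAlgebra.Projectivization

universe u

section

variable {α : Type u} [Fintype α] [DecidableEq α] {p : ℕ} [hp : Fact p.Prime]

/-- the conjugation map into the automorphisms of the simple normal subgroup -/
theorem conj_injective {G : Type*} [Group G] {T : Subgroup G} [T.Normal]
    (hmin : ∀ N : Subgroup G, N.Normal → N ≠ ⊥ → T ≤ N) (hc : ¬ (∀ x y : T, x * y = y * x)) :
    Function.Injective (MulAut.conjNormal (H := T) : G →* MulAut T) := by
  rw [← MonoidHom.ker_eq_bot_iff]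
  by_contra hne
  apply hc
  have h1 := hmin _ (inferInstance : (MulAut.conjNormal (H := T) : G →* MulAut T).ker.Normal) hne
  intro x y
  have h2 := MonoidHom.mem_ker.1 (h1 x.2)
  have h3 := congrArg (fun f : MulAut T => ((f y : T) : G)) h2
  simp only [MulAut.conjNormal_apply, MulAut.one_apply] at h3
  apply Subtype.ext
  exact mul_inv_eq_iff_eq_mul.1 h3

theorem arith_two {q j e n : ℕ} (hq : q = 2 ^ e) (he : 3 ≤ e) (hj : j ∣ e) (hn : (q - 1) * j = n)
    (hn1 : n ≡ 1 [MOD (q + 1)]) : False := by
  have he2 : 2 * e < 2 ^ e := by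
    obtain ⟨k, rfl⟩ := Nat.exists_eq_add_of_le he
    clear hj hq
    induction k with
    | zero => norm_num
    | succ k ih =>
      have h1 := ih (by omega)
      rw [show 3 + (k + 1) = (3 + k) + 1 by ring, pow_succ]
      omega
  have hje : j ≤ e := Nat.le_of_dvd (by omega) hj
  have hj0 : 0 < j := Nat.pos_of_dvd_of_pos hj (by omega)
  have h1 : n + (2 * j + 1) ≡ 1 + (2 * j + 1) [MOD (q + 1)] := hn1.add_right _
  have h2 : n + (2 * j + 1) = (q + 1) * j + 1 := by
    rw [← hn]
    obtain ⟨k, rfl⟩ : ∃ k, q = k + 1 := ⟨q - 1, by omega⟩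
    rw [Nat.add_sub_cancel]
    ring
  rw [h2] at h1
  have h3 : (q + 1) * j + 1 ≡ 1 [MOD (q + 1)] := by
    have h4 : (q + 1) * j ≡ 0 [MOD (q + 1)] := (Nat.modEq_zero_iff_dvd).2 (dvd_mul_right _ _)
    exact h4.add_right 1
  have h5 : 1 + (2 * j + 1) ≡ 1 + 0 [MOD (q + 1)] := h1.symm.trans h3
  have h6 : 2 * j + 1 ≡ 0 [MOD (q + 1)] := Nat.ModEq.add_left_cancel' 1 h5
  rw [Nat.modEq_zero_iff_dvd] at h6
  have h7 := Nat.le_of_dvd (by omega) h6
  omega

theorem no_eleven {G : Type*} [Group G] {n : ℕ} (h : Nat.card G = 11 * (11 - 1) * n) (hn : n ≡ 1 [MOD 11])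
    (hc : Nat.card G = 7920 ∨ Nat.card G = 660) : False := by
  rcases hc with hc | hc
  · rw [hc] at h
    obtain rfl : n = 72 := by omega
    exact absurd hn (by decide)
  · rw [hc] at h
    obtain rfl : n = 6 := by omega
    exact absurd hn (by decide)

/-- If the maximal overgroup is unique then all proper overgroups are solvable (prime degree). -/
theorem fwd_prime (hPI : PrimeIdx.{u}) (hα : Fintype.card α = p) (h7 : 7 ≤ p) (R : Sylow p (alternatingGroup α))
    (hu : ∃! M : Subgroup (alternatingGroup α), IsCoatom M ∧ (R : Subgroup (alternatingGroup α)) ≤ M)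
    {X : Subgroup (alternatingGroup α)} (hRX : (R : Subgroup (alternatingGroup α)) ≤ X) (hX : X ≠ ⊤) :
    Group.IsSolvable X := by
  obtain ⟨M0, ⟨hco, hR0⟩, hM0⟩ := hu
  by_contra hns
  have hXM0 : X ≤ M0 := le_of_unique hM0 hX hRX
  have hns0 : ¬ Group.IsSolvable M0 := fun h =>
    hns (Group.isSolvable_of_isSolvable_injective (Subgroup.inclusion_injective hXM0))
  obtain ⟨G0, hle, hnorm, hnA, htr, hsol, h3t, n, hn, hn1⟩ := fwd_setup hα h7 R M0 hco hR0 hM0 hns0
  obtain ⟨T, hTn, hTs, hTmin, hTc, hTb⟩ := pd_exists_simple (M := G0) hα hsol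
  have hTtr := pd_normal_transitive (M := G0) hα T hTb
  have hfin : Finite G0 := inferInstance
  have hT3 : IsMultiplyPretransitive T α 3 := Cfsg.Agent.S0699.result G0 (by
    rw [hα]; exact hp.out.odd_of_ne_two (by omega)) (by omega) h3t T hTb
  have hpT : p ∣ Nat.card T := pd_dvd hα
  have hA0 : ∀ t : T, ((t : G0) : Perm α) ∈ alternatingGroup α := fun t =>
    hom_le_alt hTc (G0.subtype.comp T.subtype) t
  -- the order of `T` is not that of the alternating group
  have hTA : Nat.card T ≠ Nat.card (alternatingGroup α) := by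
    intro h
    apply hnA
    let T' : Subgroup (Perm α) := T.map G0.subtype
    have h1 : T' ≤ alternatingGroup α := by
      rintro _ ⟨t, ht, rfl⟩
      exact hA0 ⟨t, ht⟩
    have h2 : Nat.card T' = Nat.card T := Subgroup.card_map_of_injective (Subgroup.subtype_injective _)
    have h3 : T' = alternatingGroup α := Subgroup.eq_of_le_of_card_ge h1 (by rw [h2, h])
    rw [← h3]
    rintro _ ⟨t, ht, rfl⟩
    exact t.2
  have hinjΦ := conj_injective hTmin hTc
  obtain ⟨a0⟩ : Nonempty α := Fintype.card_pos_iff.mp (by rw [hα]; exact hp.out.pos)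
  have hidx : (stabilizer T a0).index = p := by
    rw [index_stabilizer_of_transitive, Nat.card_eq_fintype_card, hα]
  rcases hPI T (fun h => hTc h.is_comm.comm) (stabilizer T a0) p hp.out hidx with h | h | h | h
  · -- alternating
    obtain ⟨-, ⟨e⟩⟩ := h
    apply hTA
    rw [Nat.card_congr e.toEquiv]
    have n1 : Nontrivial α := Fintype.one_lt_card_iff_nontrivial.1 (by omega)
    have n2 : Nontrivial (Fin p) := Fintype.one_lt_card_iff_nontrivial.1 (by
      rw [Fintype.card_fin]; omega)
    rw [nat_card_alternatingGroup, nat_card_alternatingGroup, Nat.card_fin, Nat.card_eq_fintype_card, hα]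
  · -- linear
    obtain ⟨d, F, hF, hF', hd, hqd, ⟨ι⟩⟩ := h
    set q := Fintype.card F with hq
    have hq2 : 2 ≤ q := Fintype.one_lt_card
    have hnt : Nontrivial (Fin d) := Fin.nontrivial_iff_two_le.2 hd
    have hXc : Nat.card (ℙ F (Fin d → F)) = p := by
      have h1 := Projectivization.card F (Fin d → F)
      rw [Nat.card_fun, Nat.card_fin, Nat.card_eq_fintype_card, ← hq, hqd] at h1
      exact (Nat.eq_of_mul_eq_mul_right (by omega) h1).symm
    have hs : IsSimpleGroup (Matrix.ProjectiveSpecialLinearGroup (Fin d) F) := ι.isSimpleGroup_congr.1 hTs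
    have hna := psl_not_comm (ι := Fin d) (F := F)
    have hcardPT : Nat.card (Matrix.ProjectiveSpecialLinearGroup (Fin d) F) = Nat.card T :=
      (Nat.card_congr ι.toEquiv).symm
    obtain ⟨ψ, e, hinj, hequiv, hRψ⟩ := exists_embed (α := α) (R : Subgroup (alternatingGroup α)) R.isPGroup'
      (not_sq_dvd_card_alt (by have := hp.out.pos; omega) (by omega))
      (X := ℙ F (Fin d → F)) hna (by rw [hcardPT]; exact hpT) (by rw [hXc, hα]) (by omega)
    have hψtop : ψ.range ≠ ⊤ := by
      intro h
      apply hTA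
      rw [← hcardPT, Nat.card_congr (MonoidHom.ofInjective hinj).toEquiv, h, Subgroup.card_top]
    have hψM := le_of_unique hM0 hψtop hRψ
    have hψG : ∀ h, (ψ h : Perm α) ∈ G0 := fun h => hle ⟨ψ h, hψM ⟨h, rfl⟩, rfl⟩
    -- `ψ` maps into `T`
    let ψ0 : Matrix.ProjectiveSpecialLinearGroup (Fin d) F →* G0 :=
      ((alternatingGroup α).subtype.comp ψ).codRestrict G0 hψG
    have hψ0 : ∀ h, (ψ0 h : Perm α) = ψ h := fun h => rfl
    have hψ0inj : Function.Injective ψ0 := by
      intro x y hxy
      have h1 : (ψ x : Perm α) = ψ y := congrArg (fun z : G0 => (z : Perm α)) hxy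
      exact hinj (Subtype.ext h1)
    have hKtop : T.comap ψ0 = ⊤ := by
      rcases (inferInstance : (T.comap ψ0).Normal).eq_bot_or_eq_top with h | h
      · exfalso
        -- a nontrivial element of `R`
        have hRtr := pr_transitive hα (by omega) R
        have hRpre : IsPretransitive (alternatingGroup α) α :=
          alternatingGroup.isPretransitive_of_three_le_card α (by rw [Nat.card_eq_fintype_card, hα]; omega)
        have hRb := pd_sylow_ne_bot hα R
        obtain ⟨⟨r, hr⟩, hr1⟩ := Subgroup.ne_bot_iff_exists_ne_one.1 hRb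
        obtain ⟨x, hx⟩ := hRψ hr
        have hpg : IsPGroup p (((R : Subgroup (alternatingGroup α)).map (alternatingGroup α).subtype).subgroupOf G0) :=
          (R.isPGroup'.map _).comap_subtype
        obtain ⟨Q, hQ⟩ := hpg.exists_le_sylow
        have h2 : ψ0 x ∈ T := by
          apply pd_sylow_le hα Q T hTb
          apply hQ
          rw [Subgroup.mem_subgroupOf]
          refine ⟨r, hr, ?_⟩
          rw [hψ0, hx]
          rfl
        have h3 : x ∈ T.comap ψ0 := h2
        rw [h, Subgroup.mem_bot] at h3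
        rw [h3, map_one] at hx
        exact hr1 (Subtype.ext hx.symm)
      · exact h
    let θ : Matrix.ProjectiveSpecialLinearGroup (Fin d) F → T := fun h => ⟨ψ0 h, by
      have : h ∈ T.comap ψ0 := by rw [hKtop]; trivial
      exact this⟩
    have hθinj : Function.Injective θ := fun x y hxy => hψ0inj (congrArg Subtype.val hxy)
    have hθ : Function.Bijective θ := (Nat.bijective_iff_injective_and_card θ).2 ⟨hθinj, hcardPT⟩
    have hθe : ∀ h x, θ h • (e x) = e (h • x) := fun h x => hequiv h x
    rcases Nat.lt_or_ge d 3 with hd3 | hd3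
    · -- `d = 2`
      obtain rfl : d = 2 := by omega
      have hpq : p = q + 1 := by
        have h1 : q ^ 2 - 1 = (q + 1) * (q - 1) := by
          obtain ⟨k, hk⟩ : ∃ k, q = k + 1 := ⟨q - 1, by omega⟩
          rw [hk, Nat.add_sub_cancel, Nat.sub_eq_iff_eq_add (Nat.one_le_pow _ _ (by omega))]
          ring
        rw [h1] at hqd
        exact (Nat.eq_of_mul_eq_mul_right (by omega) hqd).symm
      have hqeven : Even q := by
        have h1 : Odd p := hp.out.odd_of_ne_two (by omega)
        rw [hpq] at h1
        rcases Nat.even_or_odd q with h2 | h2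
        · exact h2
        · exact absurd h1 (by rw [Nat.not_odd_iff_even]; exact h2.add_one)
      obtain ⟨e', he'⟩ : ∃ e', q = 2 ^ e' := by
        obtain ⟨l, k, hl, hk, hlk⟩ := FiniteField.isPrimePow_card F
        have h2 : 2 ∣ l ^ k := by rw [hlk]; exact hqeven.two_dvd
        have h3 := (Nat.prime_dvd_prime_iff_eq Nat.prime_two hl.nat_prime).1 (Nat.prime_two.dvd_of_dvd_pow h2)
        exact ⟨k, by rw [h3, hlk]⟩
      have he3 : 3 ≤ e' := by
        by_contra hlt
        have h1 : q ≤ 4 := by
          rw [he']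
          calc 2 ^ e' ≤ 2 ^ 2 := Nat.pow_le_pow_right (by norm_num) (by omega)
            _ = 4 := by norm_num
        omega
      have hfact2 : Fact (Nat.Prime 2) := ⟨Nat.prime_two⟩
      have hchar : CharP F 2 := by
        have h1 := FiniteField.card F (ringChar F)
        obtain ⟨m, hm1, hm2⟩ := h1
        have h2 : 2 ∣ ringChar F ^ (m : ℕ) := by rw [← hm2]; exact hqeven.two_dvd
        have h3 := (Nat.prime_dvd_prime_iff_eq Nat.prime_two hm1).1 (Nat.prime_two.dvd_of_dvd_pow h2)
        rw [h3]
        exact ringChar.charP F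
      have hTcard : Nat.card T = q * (q ^ 2 - 1) := by
        rw [← hcardPT]
        exact Cfsg.Agent.ClassicalGeometry.PSL2Basic.card_PSL2_even (F := F) hqeven
      have hAut : Nat.card (MulAut T) = q * (q ^ 2 - 1) * e' := by
        have h1 : Nat.card (MulAut T) = Nat.card (MulAut (Matrix.ProjectiveSpecialLinearGroup (Fin 2) F)) :=
          Nat.card_congr (MulAut.congr ι).toEquiv
        rw [h1, Cfsg.Agent.ClassicalGeometry.AutPSL.Main.card_two 2,
          Cfsg.Agent.ClassicalGeometry.PSL2Basic.card_PGL2,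
          Cfsg.Agent.Lib.FieldAutCard.card_ringAut (p := 2) (by omega : 1 ≤ e') he']
      have hdvd : Nat.card G0 ∣ Nat.card (MulAut T) := Subgroup.card_dvd_of_injective _ hinjΦ
      have hG0 := Subgroup.card_mul_index T
      rw [hAut, ← hG0, hTcard] at hdvd
      have hpos : 0 < q * (q ^ 2 - 1) := by
        rw [← hTcard]; exact Nat.card_pos
      have hj : T.index ∣ e' := Nat.dvd_of_mul_dvd_mul_left hpos hdvd
      have hn' : (q - 1) * T.index = n := by
        rw [← hG0, hTcard, hpq, Nat.add_sub_cancel] at hn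
        have h1 : q ^ 2 - 1 = (q + 1) * (q - 1) := by
          obtain ⟨k, hk⟩ : ∃ k, q = k + 1 := ⟨q - 1, by omega⟩
          rw [hk, Nat.add_sub_cancel, Nat.sub_eq_iff_eq_add (Nat.one_le_pow _ _ (by omega))]
          ring
        rw [h1] at hn
        apply Nat.eq_of_mul_eq_mul_left (show 0 < (q + 1) * q by positivity)
        rw [← hn]
        ring
      rw [hpq] at hn1
      exact arith_two he' he3 hj hn' hn1
    · refine psl_not_three (ι := Fin d) (F := F) (by rw [Fintype.card_fin]; exact hd3) ?_
      intro a b c a' b' c' hab hac hbc hab' hac' hbc'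
      obtain ⟨g, h1, h2, h3⟩ := three_of_multiply hT3 (a := e a) (b := e b) (c := e c)
        (a' := e a') (b' := e b') (c' := e c') (e.injective.ne hab) (e.injective.ne hac) (e.injective.ne hbc)
        (e.injective.ne hab') (e.injective.ne hac') (e.injective.ne hbc')
      obtain ⟨x, rfl⟩ := hθ.2 g
      refine ⟨x, ?_, ?_, ?_⟩
      · apply e.injective; rw [← hθe]; exact h1
      · apply e.injective; rw [← hθe]; exact h2
      · apply e.injective; rw [← hθe]; exact h3
  · -- degree 11
    obtain ⟨rfl, -⟩ := h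
    refine no_eleven hn hn1 ?_
    rcases Cfsg.Agent.S0679.result hα G0 hsol hnA with h | ⟨⟨e⟩⟩
    · left
      obtain ⟨h4, hstab⟩ := h
      have h4' : IsPretransitive G0 (Fin 4 ↪ α) := h4
      obtain ⟨x⟩ : Nonempty (Fin 4 ↪ α) := Function.Embedding.nonempty_of_card_le (by
        rw [Fintype.card_fin, hα]; norm_num)
      have h5 := @index_stabilizer_of_transitive G0 (Fin 4 ↪ α) _ _ x h4
      rw [hstab x, Subgroup.index_bot, Nat.card_eq_fintype_card (α := Fin 4 ↪ α), Fintype.card_embedding_eq,
        Fintype.card_fin, hα] at h5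
      rw [h5]
      decide
    · right
      rw [Nat.card_congr e.toEquiv]
      have h := Cfsg.Agent.ClassicalGeometry.PSL2Basic.card_PSL2_odd (F := ZMod 11) (by rw [ZMod.card]; decide)
      rw [ZMod.card] at h
      omega
  · -- degree 23
    obtain ⟨rfl, hiso⟩ := h
    have hTtop : T = ⊤ := by
      rw [eq_top_iff]
      intro g _
      obtain ⟨k, hk⟩ := Cfsg.Agent.KFacts.M23.OutOne.exists_conj' hiso (MulAut.conjNormal g : MulAut T)
      have h1 : (MulAut.conjNormal g : MulAut T) = (MulAut.conjNormal (k : G0) : MulAut T) := by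
        apply MulEquiv.ext
        intro x
        rw [hk x]
        apply Subtype.ext
        rfl
      have h2 := hinjΦ h1
      rw [h2]
      exact k.2
    have h1 : Nat.card G0 = 10200960 := by
      obtain ⟨eM⟩ := hiso
      have h2 := Nat.card_congr eM.toEquiv
      rw [Cfsg.Agent.SporadicA.MathieuRecog.card_M23, hTtop, Subgroup.card_top] at h2
      exact h2
    rw [h1] at hn
    obtain rfl : n = 20160 := by omega
    exact absurd hn1 (by decide)

end

end Cfsg.Agent.H100.AltSyl
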